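import Groth.Agent.Dual.H364.InvD

/-!
# Two dualizing complexes on a locally Noetherian scheme differ by an invertible object

* `isDualizingSch_restrict`: restriction of a dualizing complex to an open subscheme;
* `nonempty_rhSelf_dualizing`: `RHom(K, K) ≅ O`;
* `locInv`: `RHom(K, K')` is invertible;
* `main`: `K' ≅ K ⊗ᴸ RHom(K, K')`.
-/

set_option autoImplicit false

universe u

open CategoryTheory Category Limits AlgebraicGeometry Pretriangulated

attribute [local instance] HasDerivedCategory.standard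

namespace Groth.Agent.Dual.H364.DualUniq

open DCoh Groth.Agent.PerfC.DTens Groth.Agent.PerfC.RHomD
  Groth.Agent.LoccohB Groth.Agent.PerfC.LTXRestr Groth.Agent.PerfC.RHomShift
  Groth.Agent.Dual.H364.InvD
open Groth.Agent.PerfA.Restrict hiding restrictD

variable {X : Scheme.{u}}

section Restr

variable [∀ (U : Scheme.{u}) (j : U ⟶ X) [IsOpenImmersion j],
    PreservesFiniteLimits (Scheme.Modules.restrictFunctor j)]
  [∀ (R : CommRingCat.{u}), PreservesFiniteLimits (tilde.functor R)]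

/-- Restriction of a dualizing complex to an open subscheme is dualizing. -/
theorem isDualizingSch_restrict {U : Scheme.{u}} (j : U ⟶ X) [IsOpenImmersion j]
    [∀ (V : Scheme.{u}) (i : V ⟶ U) [IsOpenImmersion i],
      PreservesFiniteLimits (Scheme.Modules.restrictFunctor i)]
    {K : DCoh.D X} (hK : Dual2.IsDualizingSch X K) :
    Dual2.IsDualizingSch U ((restrictD j).obj K) := by
  intro A _ i _
  obtain ⟨ω, hω, ⟨e⟩⟩ := hK A (i ≫ j)
  exact ⟨ω, hω, ⟨(Groth.Agent.PerfA.PerfLocal.restrictDComp i j).app K ≪≫ e⟩⟩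

end Restr

/-- `RHom(K, K) ≅ O` for a dualizing complex `K`. -/
theorem nonempty_rhSelf_dualizing [IsLocallyNoetherian X]
    [∀ (U : Scheme.{u}) (j : U ⟶ X) [IsOpenImmersion j],
      PreservesFiniteLimits (Scheme.Modules.restrictFunctor j)]
    [∀ (R : CommRingCat.{u}), PreservesFiniteLimits (tilde.functor R)]
    {K : DCoh.D X} (hK : Dual2.IsDualizingSch X K) :
    Nonempty ((RH K).obj K ≅ OO X) := by
  obtain ⟨e⟩ := BiGlobal.nonempty_bidual hK (L := OO X) isCohD_OO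
  obtain ⟨e'⟩ := nonempty_rhUnit K
  exact ⟨rhIso e' K ≪≫ e⟩

/-- `RHom(K, K') ≅ O[-n]` if `K ≅ K'[n]` with `K'` dualizing. -/
theorem nonempty_rh_of_shift [IsLocallyNoetherian X]
    [∀ (U : Scheme.{u}) (j : U ⟶ X) [IsOpenImmersion j],
      PreservesFiniteLimits (Scheme.Modules.restrictFunctor j)]
    [∀ (R : CommRingCat.{u}), PreservesFiniteLimits (tilde.functor R)]
    {K K' : DCoh.D X} (hK' : Dual2.IsDualizingSch X K') (n : ℤ) (e : K ≅ K'⟦n⟧) :
    Nonempty ((RH K).obj K' ≅ (OO X)⟦-n⟧) := by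
  obtain ⟨a⟩ := nonempty_shiftTens n K'
  obtain ⟨b⟩ := nonempty_rhTensor ((OO X)⟦n⟧) K' K'
  obtain ⟨c⟩ := nonempty_rhSelf_dualizing hK'
  obtain ⟨d⟩ := nonempty_rhShiftUnit n (OO X)
  exact ⟨rhIso (a ≪≫ e.symm) K' ≪≫ b.symm ≪≫ (RH ((OO X)⟦n⟧)).mapIso c ≪≫ d⟩

section Main

variable [IsLocallyNoetherian X]
  [∀ (U V : Scheme.{u}) (j : U ⟶ V) [IsOpenImmersion j],
    PreservesFiniteLimits (Scheme.Modules.restrictFunctor j)]
  [∀ (R : CommRingCat.{u}), PreservesFiniteLimits (tilde.functor R)]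
  {K K' : DCoh.D X} (hK : Dual2.IsDualizingSch X K) (hK' : Dual2.IsDualizingSch X K')

include hK hK'

omit [IsLocallyNoetherian X] in
/-- Locally, `K` is a shift of `K'`. -/
theorem exists_local_shift (x : X) : ∃ (A : Type u) (_ : CommRing A)
    (j : Spec (CommRingCat.of A) ⟶ X) (_ : IsOpenImmersion j) (n : ℤ), x ∈ Set.range j ∧
      Nonempty ((restrictD j).obj K ≅ ((restrictD j).obj K')⟦n⟧) := by
  obtain ⟨A, _, j, _, y, hy⟩ := BiGlobal.exists_affine X x
  obtain ⟨ω, hω, ⟨e⟩⟩ := hK A j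
  obtain ⟨ω', hω', ⟨e'⟩⟩ := hK' A j
  obtain ⟨f, n, hf, ⟨i⟩⟩ := Spread.exists_local_shift hω hω' y.asIdeal
  let φ : CommRingCat.of A ⟶ CommRingCat.of (Localization.Away f) :=
    CommRingCat.ofHom (algebraMap A (Localization.Away f))
  have hφ : IsOpenImmersion (Spec.map φ) :=
    inferInstanceAs (IsOpenImmersion (Spec.map (CommRingCat.ofHom (algebraMap A (Localization.Away f)))))
  refine ⟨Localization.Away f, inferInstance, Spec.map φ ≫ j, inferInstance, n, ?_, ?_⟩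
  · have h1 : y ∈ Set.range (Spec.map φ) := by
      have h2 : Set.range (PrimeSpectrum.comap (algebraMap A (Localization.Away f))) =
          PrimeSpectrum.basicOpen f := PrimeSpectrum.localization_away_comap_range _ f
      have h3 : y ∈ (PrimeSpectrum.basicOpen f : Set (PrimeSpectrum A)) := hf
      rw [← h2] at h3
      exact h3
    obtain ⟨z, hz⟩ := h1
    exact ⟨z, by rw [Scheme.Hom.comp_apply, hz, hy]⟩
  · let T := TildeLocD.tildeDRestrictIso φ (Groth.Agent.LoccohB.GorSpread.flat_away f)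
    have a : ∀ {P : DCoh.D X} {π : Dual.D A} (_ : (restrictD j).obj P ≅
        (DCoh.tildeD (CommRingCat.of A)).obj π), Nonempty ((restrictD (Spec.map φ ≫ j)).obj P ≅
        (DCoh.tildeD (CommRingCat.of (Localization.Away f))).obj
          ((FlatLBC.flatBC (algebraMap A (Localization.Away f))
            (Groth.Agent.LoccohB.GorSpread.flat_away f)).obj π)) := fun {P π} g =>
      ⟨((Groth.Agent.PerfA.PerfLocal.restrictDComp (Spec.map φ) j).app P).symm ≪≫
        (restrictD (Spec.map φ)).mapIso g ≪≫ T.app π⟩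
    obtain ⟨a1⟩ := a e
    obtain ⟨a2⟩ := a e'
    exact ⟨a1 ≪≫ (DCoh.tildeD (CommRingCat.of (Localization.Away f))).mapIso i ≪≫
      ((DCoh.tildeD (CommRingCat.of (Localization.Away f))).commShiftIso n).app _ ≪≫
      (shiftFunctor _ n).mapIso a2.symm⟩

/-- `RHom(K, K')` is invertible. -/
theorem locInv : LocInv ((RH K).obj K') := by
  intro x
  obtain ⟨A, _, j, _, n, hx, ⟨e⟩⟩ := exists_local_shift hK hK' x
  have : IsLocallyNoetherian (Spec (CommRingCat.of A)) := isLocallyNoetherian_of_isOpenImmersion j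
  obtain ⟨i⟩ := nonempty_rhRes j K K'
  obtain ⟨i'⟩ := nonempty_rh_of_shift (isDualizingSch_restrict j hK') n e
  exact ⟨A, _, j, inferInstance, -n, hx, ⟨i ≪≫ i'⟩⟩

/-- `K' ≅ RHom(K, K') ⊗ᴸ K`. -/
theorem nonempty_eval : Nonempty (((LTX X).obj ((RH K).obj K')).obj K ≅ K') := by
  have hL : LocInv ((RH K).obj K') := locInv hK hK'
  have hKc : IsCohD K := Groth.Agent.Ega1.DualSchBdd.isCohD_of_isDualizingSch hK
  have hN : IsCohD (((LTX X).obj ((RH K).obj K')).obj K) := by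
    refine Groth.Agent.PerfA.CohExtGlue.isCohD_of_restrictD _ fun x => ?_
    obtain ⟨A, _, j, _, n, ⟨y, hy⟩, ⟨e⟩⟩ := hL x
    obtain ⟨s⟩ := nonempty_shiftTens n ((restrictD j).obj K)
    exact ⟨_, j, inferInstance, y, hy, Groth.Agent.PerfA.QCohD.isCohD_of_iso
      (restrTensObj j _ _ ≪≫ ((LTX _).mapIso e).app _ ≪≫ s).symm
      (Groth.Agent.PerfA.QCohD.isCohD_shift (Groth.Agent.PerfA.QCohD.isCohD_restrictD j hKc) n)⟩
  obtain ⟨a⟩ := nonempty_rhTensor ((RH K).obj K') K K'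
  obtain ⟨b⟩ := nonempty_rhSelf hL
  obtain ⟨c⟩ := BiGlobal.nonempty_bidual hK' hN
  obtain ⟨d⟩ := nonempty_rhUnit K'
  exact ⟨c.symm ≪≫ rhIso (b.symm ≪≫ a) K' ≪≫ d⟩

theorem main : ∃ (E : CochainComplex X.Modules ℤ) (_ : DCoh.HasLTensorCx E),
    Dual3.IsInvertibleD (DCoh.toD X E) ∧ Nonempty (K' ≅ (DCoh.LTensorCx E).obj K) := by
  let L : DCoh.D X := (RH K).obj K'
  let E := DerivedCategory.Q.objPreimage L
  let eE : DerivedCategory.Q.obj E ≅ L := DerivedCategory.Q.objObjPreimageIso L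
  have hLT := hasLTensorCx E
  have hL : LocInv L := locInv hK hK'
  have hE : LocInv (DCoh.toD X E) := fun x => by
    obtain ⟨A, _, j, _, n, hx, ⟨e⟩⟩ := hL x
    exact ⟨A, _, j, inferInstance, n, hx, ⟨(restrictD j).mapIso eE ≪≫ e⟩⟩
  refine ⟨E, hLT, hE.isInvertibleD, ?_⟩
  obtain ⟨a⟩ := nonempty_eval hK hK'
  obtain ⟨b⟩ := nonempty_comm L K
  exact ⟨a.symm ≪≫ b ≪≫ ((LTX X).obj K).mapIso eE.symm ≪≫ LTXcxObj K E⟩

end Main

end Groth.Agent.Dual.H364.DualUniq
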