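import Groth.Agent.Dual.H364.Spread
import Groth.Agent.LoccohB.BiGlobal
import Groth.Agent.LoccohB.TildeLocD
import Groth.Agent.Ega1.DualSchBdd
import Groth.Agent.Dcoh.PerfDual
import Groth.Agent.Dcoh.MonAdj
import Groth.Agent.PerfC.LTXRestr
import Groth.Agent.PerfC.RHomShift
import Groth.Agent.PerfA.FieldSch
import Groth.Prelude.Def_Dual3

/-!
# Invertible objects of `D(O_X)` and internal Hom

* `nonempty_rhTensor`: `RHom(L, RHom(K, P)) ≅ RHom(L ⊗ᴸ K, P)`;
* `LocInv L`: `L` is locally (on affine opens) a shift of the structure sheaf;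
* `nonempty_rhSelf`: `RHom(L, L) ≅ O_X` for `L` invertible (`X` locally Noetherian).
-/

set_option autoImplicit false

universe u

open CategoryTheory Category Limits AlgebraicGeometry Pretriangulated

attribute [local instance] HasDerivedCategory.standard

namespace Groth.Agent.Dual.H364.InvD

open DCoh Groth.Agent.PerfC.DTens Groth.Agent.PerfC.RHomD
  Groth.Agent.LoccohB Groth.Agent.PerfC.LTXRestr Groth.Agent.PerfC.RHomShift
open Groth.Agent.PerfA.Restrict hiding restrictD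

/-- The structure sheaf in degree `0`. -/
noncomputable abbrev OO (X : Scheme.{u}) : DCoh.D X := DCoh.inD X (Coh.structureModule X)

variable {X : Scheme.{u}}

open MonoidalCategory in
open scoped Groth.Agent.Dcoh.MonCat Groth.Agent.Dcoh.ModD in
/-- `RHom(L, RHom(K, P)) ≅ RHom(L ⊗ᴸ K, P)`. -/
theorem nonempty_rhTensor (L K P : DCoh.D X) :
    Nonempty ((RH L).obj ((RH K).obj P) ≅ (RH (((LTX X).obj L).obj K)).obj P) := by
  obtain ⟨e⟩ := Groth.Agent.Dcoh.PerfDual.nonempty_iso L K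
  obtain ⟨i⟩ := Groth.Agent.Dcoh.MonAdj.nonempty_tensor (K := L) (L := K)
    (E := ((LTX X).obj L).obj K) ⟨e.symm⟩
    (Groth.Agent.Dcoh.PerfDual.nonempty_flipIso L) (Groth.Agent.Dcoh.PerfDual.nonempty_flipIso K)
    (Groth.Agent.Dcoh.PerfDual.nonempty_flipIso _) (rhAdj L) (rhAdj K) (rhAdj _)
  exact ⟨i.app P⟩

/-- `A ⊗ᴸ B ≅ B ⊗ᴸ A`. -/
theorem nonempty_comm (A B : DCoh.D X) :
    Nonempty (((LTX X).obj A).obj B ≅ ((LTX X).obj B).obj A) := by
  obtain ⟨s⟩ := LTXInst.nonempty_symm X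
  exact ⟨(s.app A).app B⟩

/-- `A ⊗ᴸ O ≅ A`. -/
theorem nonempty_tensUnit (A : DCoh.D X) : Nonempty (((LTX X).obj A).obj (OO X) ≅ A) := by
  exact ⟨((LTX X).obj A).mapIso
    ((DerivedCategory.singleFunctorIsoCompQ X.Modules 0).app (Coh.structureModule X)) ≪≫
    (Groth.Agent.PerfC.LpullTens.unitIso X).app A⟩

/-- `O ⊗ᴸ A ≅ A`. -/
theorem nonempty_unitTens (A : DCoh.D X) : Nonempty (((LTX X).obj (OO X)).obj A ≅ A) := by
  obtain ⟨e⟩ := nonempty_comm (OO X) A
  obtain ⟨e'⟩ := nonempty_tensUnit A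
  exact ⟨e ≪≫ e'⟩

/-- `O[n] ⊗ᴸ A ≅ A[n]`. -/
theorem nonempty_shiftTens (n : ℤ) (A : DCoh.D X) :
    Nonempty (((LTX X).obj ((OO X)⟦n⟧)).obj A ≅ A⟦n⟧) := by
  obtain ⟨e⟩ := LTXInst.nonempty_shift (OO X) n
  obtain ⟨e'⟩ := nonempty_unitTens A
  exact ⟨e.app A ≪≫ (shiftFunctor _ n).mapIso e'⟩

/-- `RHom(O[n], O) ≅ O[-n]`. -/
theorem nonempty_rhShiftUnit (n : ℤ) (P : DCoh.D X) :
    Nonempty ((RH ((OO X)⟦n⟧)).obj P ≅ P⟦-n⟧) := by
  obtain ⟨e⟩ := nonempty_rhShift (OO X) P n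
  obtain ⟨e'⟩ := nonempty_rhUnit (P⟦-n⟧)
  exact ⟨e ≪≫ e'⟩

/-- `RHom(O[n], O[n]) ≅ O`. -/
theorem nonempty_rhShiftSelf (n : ℤ) :
    Nonempty ((RH ((OO X)⟦n⟧)).obj ((OO X)⟦n⟧) ≅ OO X) := by
  obtain ⟨e⟩ := nonempty_rhShiftUnit n ((OO X)⟦n⟧)
  exact ⟨e ≪≫ (shiftShiftNeg (OO X) n)⟩

/-- Restriction of the structure sheaf. -/
noncomputable def resOO {U : Scheme.{u}} (j : U ⟶ X) [IsOpenImmersion j] :
    (restrictD j).obj (OO X) ≅ OO U :=
  Groth.Agent.PerfA.FieldSch.restrictInD j _ ≪≫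
    (DerivedCategory.singleFunctor U.Modules 0).mapIso (Scheme.Modules.restrictUnitIso j)

/-- Restriction of a shift of the structure sheaf. -/
noncomputable def resOOShift {U : Scheme.{u}} (j : U ⟶ X) [IsOpenImmersion j] (n : ℤ) :
    (restrictD j).obj ((OO X)⟦n⟧) ≅ (OO U)⟦n⟧ :=
  ((restrictD j).commShiftIso n).app (OO X) ≪≫ (shiftFunctor _ n).mapIso (resOO j)

/-- `L` is locally (on affine opens) a shift of the structure sheaf. -/
def LocInv (L : DCoh.D X) : Prop :=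
  ∀ x : X, ∃ (A : Type u) (_ : CommRing A) (j : Spec (CommRingCat.of A) ⟶ X) (_ : IsOpenImmersion j)
    (n : ℤ), x ∈ Set.range j ∧ Nonempty ((restrictD j).obj L ≅ (OO (Spec (CommRingCat.of A)))⟦n⟧)

theorem LocInv.isInvertibleD {L : DCoh.D X} (h : LocInv L) : Dual3.IsInvertibleD L := by
  intro x
  obtain ⟨A, _, j, _, n, hx, ⟨e⟩⟩ := h x
  refine ⟨j.opensRange, n, hx, ⟨?_⟩⟩
  have h1 : j.isoOpensRange.inv ≫ j = j.opensRange.ι := by simp
  exact (Groth.Agent.PerfA.PerfLocal.restrictDCongr h1.symm).app L ≪≫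
    ((Groth.Agent.PerfA.PerfLocal.restrictDComp j.isoOpensRange.inv j).app L).symm ≪≫
    (restrictD j.isoOpensRange.inv).mapIso e ≪≫ resOOShift _ n

/-- The structure sheaf of a locally Noetherian scheme is coherent. -/
theorem isCohD_OO [IsLocallyNoetherian X] : IsCohD (OO X) := by
  refine Groth.Agent.PerfA.CohExtGlue.isCohD_of_restrictD _ fun x => ?_
  obtain ⟨A, _, j, _, y, hy⟩ := BiGlobal.exists_affine X x
  have := BiGlobal.isNoetherianRing_of_isOpenImmersion A j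
  refine ⟨_, j, inferInstance, y, hy, Groth.Agent.PerfA.QCohD.isCohD_of_iso
    (Groth.Agent.PerfA.FieldSch.restrictStructureIso A j).symm ?_⟩
  exact (AdAffine.isCohD_tilde_iff (P := CommRingCat.of A) (Dual.inD A A)).2
    (FlatDual.finite_HD_inD A)

theorem isCohD_OO_shift [IsLocallyNoetherian X] (n : ℤ) : IsCohD ((OO X)⟦n⟧) :=
  Groth.Agent.PerfA.QCohD.isCohD_shift isCohD_OO n

section Self

variable [IsLocallyNoetherian X]

/-- The unit `O ⟶ RHom(L, L)` becomes a split monomorphism after tensoring with `L`, and an isomorphism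
if `L` is invertible. -/
theorem nonempty_rhSelf {L : DCoh.D X} (hL : LocInv L) : Nonempty ((RH L).obj L ≅ OO X) := by
  obtain ⟨φ⟩ := nonempty_unitTens L
  let F := (LTX X).flip.obj L
  let φ' : F.obj (OO X) ≅ L := φ
  let u : OO X ⟶ (RH L).obj L := (rhAdj L).homEquiv (OO X) L φ'.hom
  have hu : F.map u ≫ (rhAdj L).counit.app L = φ'.hom := by
    have h1 := ((rhAdj L).homEquiv_counit (X := OO X) (Y := L) (g := u)).symm
    rw [Equiv.symm_apply_apply] at h1
    exact h1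
  let p : F.obj ((RH L).obj L) ⟶ F.obj (OO X) := (rhAdj L).counit.app L ≫ φ'.inv
  have hp : F.map u ≫ p = 𝟙 _ := by
    rw [← assoc, hu, Iso.hom_inv_id]
  have hiso : IsIso p := by
    rw [DerivedCategory.isIso_iff]
    intro m
    refine isIso_of_restrict _ fun x => ?_
    obtain ⟨A, _, j, _, n, ⟨y, hy⟩, ⟨e⟩⟩ := hL x
    have := BiGlobal.isNoetherianRing_of_isOpenImmersion A j
    -- both sides are `O[n]` locally
    have e1 : (restrictD j).obj (F.obj (OO X)) ≅ (OO (Spec (CommRingCat.of A)))⟦n⟧ :=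
      (restrictD j).mapIso φ' ≪≫ e
    obtain ⟨r1⟩ := nonempty_rhRes j L L
    obtain ⟨r2⟩ := nonempty_rhShiftSelf (X := Spec (CommRingCat.of A)) n
    have r3 : (restrictD j).obj ((RH L).obj L) ≅ OO (Spec (CommRingCat.of A)) :=
      r1 ≪≫ (RH _).mapIso e ≪≫ rhIso e.symm _ ≪≫ r2
    obtain ⟨r4⟩ := nonempty_unitTens ((OO (Spec (CommRingCat.of A)))⟦n⟧)
    have e2 : (restrictD j).obj (F.obj ((RH L).obj L)) ≅ (OO (Spec (CommRingCat.of A)))⟦n⟧ :=
      restrTensObj j _ _ ≪≫ ((LTX _).mapIso r3).app _ ≪≫ ((LTX _).obj _).mapIso e ≪≫ r4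
    have h1 : (restrictD j).map (F.map u) ≫ (restrictD j).map p = 𝟙 _ := by
      rw [← Functor.map_comp, hp, CategoryTheory.Functor.map_id]
    have h2 : IsIso ((restrictD j).map p) :=
      BiAffine.isIso_of_retract A
        (Groth.Agent.PerfA.QCohD.isCohD_of_iso e1.symm (isCohD_OO_shift n)) (e2 ≪≫ e1.symm) _ _ h1
    refine ⟨_, j, inferInstance, y, hy, ?_⟩
    exact (NatIso.isIso_map_iff (Groth.Agent.PerfA.ExactD.mapHomology (Scheme.Modules.restrictFunctor j) m) p).1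
      (inferInstanceAs (IsIso ((DerivedCategory.homologyFunctor _ m).map ((restrictD j).map p))))
  have hFu : IsIso (F.map u) := by
    have h3 : F.map u = inv p := by
      rw [← cancel_mono p, hp, IsIso.inv_hom_id]
    rw [h3]
    infer_instance
  obtain ⟨Z, g, δ, hΔ⟩ := distinguished_cocone_triangle u
  have hFZ : IsZero (F.obj Z) := by
    obtain ⟨_, _⟩ := isTriang_LTX_flip_obj L
    exact (Triangle.isZero₃_iff_isIso₁ _ (F.map_distinguished _ hΔ)).2 hFu
  have hZ : IsZero Z := by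
    rw [Groth.Agent.PerfA.ExactD.isZero_iff]
    intro m
    refine isZero_of_restrict _ fun x => ?_
    obtain ⟨A, _, j, _, n, ⟨y, hy⟩, ⟨e⟩⟩ := hL x
    obtain ⟨c⟩ := nonempty_comm ((restrictD j).obj Z) ((restrictD j).obj L)
    obtain ⟨s⟩ := nonempty_shiftTens n ((restrictD j).obj Z)
    have h4 : IsZero (((restrictD j).obj Z)⟦n⟧) :=
      ((restrictD j).map_isZero hFZ).of_iso
        (s.symm ≪≫ ((LTX _).mapIso e.symm).app _ ≪≫ c.symm ≪≫ (restrTensObj j _ _).symm)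
    have h5 : IsZero ((restrictD j).obj Z) :=
      ((shiftFunctor (DCoh.D (Spec (CommRingCat.of A))) (-n)).map_isZero h4).of_iso
        (shiftShiftNeg ((restrictD j).obj Z) n).symm
    exact ⟨_, j, inferInstance, y, hy, (Functor.map_isZero (DerivedCategory.homologyFunctor _ m) h5).of_iso
      (HDrestrict j Z m).symm⟩
  have : IsIso u := (Triangle.isZero₃_iff_isIso₁ _ hΔ).1 hZ
  exact ⟨(asIso u).symm⟩

end Self

end Groth.Agent.Dual.H364.InvD
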