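import Groth.Agent.LoccohB.GorSpread
import Groth.Agent.LoccohB.FlatDual
import Groth.Agent.LoccohA.DzUnique3

/-!
# Two dualizing complexes over a Noetherian ring are Zariski-locally shifts of each other

* `spreadIso`: an isomorphism `X ⊗ A_q ≅ Y ⊗ A_q` (bounded objects with finite cohomology) spreads out to `A_f`.
* `exists_local_shift`: `ω ⊗ A_f ≅ (ω' ⊗ A_f)[n]` near every prime for dualizing complexes `ω`, `ω'`.
-/

set_option autoImplicit false
universe u

open CategoryTheory CategoryTheory.Limits Pretriangulated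
open scoped TensorProduct

attribute [local instance] HasDerivedCategory.standard

namespace Groth.Agent.Dual.H364.Spread

open DerivedCategory Groth.Agent.LoccohB.DBase Groth.Agent.LoccohB.Devissage
  Groth.Agent.LoccohB.HomBC Groth.Agent.LoccohB.GorNak Groth.Agent.LoccohB.FlatLBC
  Groth.Agent.LoccohB.LBC Groth.Agent.LoccohB.GorSpread

variable {A : Type u} [CommRing A]

/-- The cone of a morphism of bounded objects with finite cohomology is bounded with finite cohomology. -/
lemma exists_cone' [IsNoetherianRing A] (X K : Dual.D A) (c d a b : ℤ) [X.IsGE c] [X.IsLE d] [K.IsGE a]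
    [K.IsLE b] (hX : ∀ i, Module.Finite A (Dual.HD A X i))
    (hf : ∀ i, Module.Finite A (Dual.HD A K i)) (x : X ⟶ K) :
    ∃ (T : Triangle (Dual.D A)) (_ : T ∈ distTriang (Dual.D A)) (e₁ : X ≅ T.obj₁)
      (e₂ : T.obj₂ ≅ K) (_ : e₁.hom ≫ T.mor₁ ≫ e₂.hom = x) (a' b' : ℤ),
        T.obj₃.IsGE a' ∧ T.obj₃.IsLE b' ∧ ∀ i, Module.Finite A (Dual.HD A T.obj₃ i) := by
  obtain ⟨Z, g', h', hT⟩ := distinguished_cocone_triangle x
  refine ⟨_, hT, Iso.refl _, Iso.refl _, ?_, min a (c - 1), max b d, ?_, ?_, ?_⟩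
  · exact (Category.id_comp _).trans (Category.comp_id _)
  · have h1 : (TStructure.t : Triangulated.TStructure (Dual.D A)).IsGE K (min a (c - 1)) :=
      TStructure.t.isGE_of_ge _ _ a (min_le_left _ _)
    have h2 : (TStructure.t : Triangulated.TStructure (Dual.D A)).IsGE (X⟦(1 : ℤ)⟧)
        (c - 1) := TStructure.t.isGE_shift _ c 1 (c - 1) (by lia)
    have h3 : (TStructure.t : Triangulated.TStructure (Dual.D A)).IsGE (X⟦(1 : ℤ)⟧)
        (min a (c - 1)) := TStructure.t.isGE_of_ge _ _ (c - 1) (min_le_right _ _)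
    exact TStructure.t.isGE₂ _ (rot_of_distTriang _ hT) _ h1 h3
  · have h1 : (TStructure.t : Triangulated.TStructure (Dual.D A)).IsLE K (max b d) :=
      TStructure.t.isLE_of_le _ b _ (le_max_left _ _)
    have h2 : (TStructure.t : Triangulated.TStructure (Dual.D A)).IsLE (X⟦(1 : ℤ)⟧)
        (d - 1) := TStructure.t.isLE_shift _ d 1 (d - 1) (by lia)
    have h3 : (TStructure.t : Triangulated.TStructure (Dual.D A)).IsLE (X⟦(1 : ℤ)⟧)
        (max b d) :=
      TStructure.t.isLE_of_le _ (d - 1) _ ((by lia : d - 1 ≤ d).trans (le_max_right _ _))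
    exact TStructure.t.isLE₂ _ (rot_of_distTriang _ hT) _ h1 h3
  · exact finite_HD_third _ hT hX hf

theorem spreadIso [IsNoetherianRing A] (q : Ideal A) [q.IsPrime] (X K : Dual.D A) (c d a b : ℤ)
    [X.IsGE c] [X.IsLE d] [K.IsGE a] [K.IsLE b] (hX : ∀ i, Module.Finite A (Dual.HD A X i))
    (hf : ∀ i, Module.Finite A (Dual.HD A K i))
    (e' : (flatBC (algebraMap A (Localization.AtPrime q)) (flat_atPrime q)).obj X ≅
      (flatBC (algebraMap A (Localization.AtPrime q)) (flat_atPrime q)).obj K) :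
    ∃ f, f ∉ q ∧ Nonempty ((flatBC (algebraMap A (Localization.Away f)) (flat_away f)).obj X ≅
      (flatBC (algebraMap A (Localization.Away f)) (flat_away f)).obj K) := by
  let S := Localization.AtPrime q
  let G := flatBC (algebraMap A S) (flat_atPrime q)
  obtain ⟨t, ht⟩ := (bc_bijective_of_bounded S (flat_atPrime q) X c d hX K a).2 e'.hom
  obtain ⟨⟨x, s⟩, hx⟩ := IsLocalizedModule.surj q.primeCompl
    (TensorProduct.mk A S (X ⟶ K) 1) t
  have hGx : G.map x = (algebraMap A S s) • e'.hom := by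
    have h1 := congrArg (bc A S G X K) hx
    rw [TensorProduct.mk_apply, bc_tmul, one_smul] at h1
    rw [← h1, ← ht]
    change bc A S G X K ((s : A) • t) = _
    rw [← algebraMap_smul S (s : A) t, bc_smul]
  have hu : IsUnit (algebraMap A S s) := IsLocalization.map_units S s
  have hiso : IsIso (G.map x) := by
    rw [hGx]
    obtain ⟨v, hv⟩ := hu
    rw [← hv]
    exact ⟨(v⁻¹ : Sˣ).1 • e'.inv, by simp [smul_smul], by simp [smul_smul]⟩
  obtain ⟨T, hT, e₁, e₂, hx', a', b', hGE, hLE, hfin⟩ := exists_cone' X K c d a b hX hf x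
  have hTmor : T.mor₁ = e₁.inv ≫ x ≫ e₂.inv := by
    rw [← hx']; simp
  have hiso' : IsIso (G.map T.mor₁) := by
    rw [hTmor, Functor.map_comp, Functor.map_comp]
    infer_instance
  have hZ0 : IsZero (G.obj T.obj₃) :=
    (Triangle.isZero₃_iff_isIso₁ _ (G.map_distinguished T hT)).2 hiso'
  rw [isZero_flatBC_iff] at hZ0
  obtain ⟨f, hfq, hfy⟩ := exists_notMem_smul_HD q T.obj₃ a' b' hfin hZ0
  refine ⟨f, hfq, ?_⟩
  let G' := flatBC (algebraMap A (Localization.Away f)) (flat_away f)
  have hZ1 : IsZero (G'.obj T.obj₃) := by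
    rw [isZero_flatBC_iff]
    exact fun i => subsingleton_tensor_away f _ (hfy i)
  have hiso2 : IsIso (G'.map T.mor₁) :=
    (Triangle.isZero₃_iff_isIso₁ _ (G'.map_distinguished T hT)).1 hZ1
  exact ⟨(G'.mapIso e₁) ≪≫ (asIso (G'.map T.mor₁)) ≪≫ (G'.mapIso e₂)⟩

/-- Dualizing complexes localize at a prime. -/
lemma isDualizing_atPrime [IsNoetherianRing A] (q : Ideal A) [q.IsPrime] {ω : Dual.D A}
    (hω : Dual.IsDualizing A ω) :
    Dual.IsDualizing (Localization.AtPrime q)
      ((flatBC (algebraMap A (Localization.AtPrime q)) (flat_atPrime q)).obj ω) :=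
  Groth.Agent.LoccohB.FlatDual.isDualizing_flatBC_of_maximal _ ω hω fun m _ =>
    ⟨m.comap (algebraMap A (Localization.AtPrime q)), IsLocalization.map_under q.primeCompl _ m⟩

/-- Two dualizing complexes are locally shifts of each other. -/
theorem exists_local_shift {ω ω' : Dual.D A} (hω : Dual.IsDualizing A ω)
    (hω' : Dual.IsDualizing A ω') (q : Ideal A) [q.IsPrime] :
    ∃ (f : A) (n : ℤ), f ∉ q ∧
      Nonempty ((flatBC (algebraMap A (Localization.Away f)) (flat_away f)).obj ω ≅
        ((flatBC (algebraMap A (Localization.Away f)) (flat_away f)).obj ω')⟦n⟧) := by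
  have := hω.isNoetherianRing
  obtain ⟨n, ⟨e⟩⟩ := Groth.Agent.LoccohA.DzUnique3.unique_up_to_shift
    (isDualizing_atPrime q hω') (isDualizing_atPrime q hω)
  obtain ⟨a, b, _, _, -⟩ := exists_bounds_of_isDualizing hω
  obtain ⟨a', b', _, _, -⟩ := exists_bounds_of_isDualizing hω'
  have hGE : (ω'⟦n⟧).IsGE (a' - n) :=
    (TStructure.t : Triangulated.TStructure (Dual.D A)).isGE_shift ω' a' n _ (by lia)
  have hLE : (ω'⟦n⟧).IsLE (b' - n) :=
    (TStructure.t : Triangulated.TStructure (Dual.D A)).isLE_shift ω' b' n _ (by lia)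
  have hfin : ∀ i, Module.Finite A (Dual.HD A (ω'⟦n⟧) i) := fun i => by
    have : Module.Finite A (((homologyFunctor (ModuleCat.{u} A) 0).shift (i + n)).obj ω') :=
      hω'.finite_cohomology (i + n)
    exact Module.Finite.equiv
      (((homologyFunctor (ModuleCat.{u} A) 0).shiftIso n i (i + n) (by lia)).app ω').symm.toLinearEquiv
  obtain ⟨f, hf, ⟨i⟩⟩ := spreadIso q ω (ω'⟦n⟧) a b (a' - n) (b' - n) hω.finite_cohomology hfin
    (e ≪≫ (((flatBC (algebraMap A (Localization.AtPrime q)) (flat_atPrime q)).commShiftIso n).app ω').symm)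
  exact ⟨f, n, hf, ⟨i ≪≫ ((flatBC (algebraMap A (Localization.Away f)) (flat_away f)).commShiftIso n).app ω'⟩⟩

end Groth.Agent.Dual.H364.Spread
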